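import Cfsg.Agent.Lib.Sig.LieNil

/-!
# Lie rings with an elementary abelian group of automorphisms
-/

set_option autoImplicit false

namespace CfsgLib.LieNil

open GradedLie HigmanLie TensorProduct

universe u

theorem mem_of_nsmul_mem {K : Type*} [AddCommGroup K] {n c : ℕ} (hn : ∀ x : K, n • x = 0)
    (h : n.Coprime c) {Y : AddSubgroup K} {x : K} (hx : c • x ∈ Y) : x ∈ Y := by
  have h1 : x = (Nat.gcdA n c) • (n • x) + (Nat.gcdB n c) • (c • x) := by
    rw [← natCast_zsmul, ← natCast_zsmul, smul_smul, smul_smul, ← add_smul, mul_comm,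
      mul_comm (Nat.gcdB n c), ← Nat.gcd_eq_gcd_ab, h.gcd_eq_one]
    simp
  rw [h1, hn, smul_zero, zero_add]
  exact zsmul_mem hx _

section Eigen

variable {p : ℕ} [hp : Fact p.Prime] {R : Type*} [CommRing R] (χ : AddChar (ZMod p) R)
  {L : Type*} [LieRing L] [LieAlgebra R L]

theorem nsmul_mem_iSup_inf (φ : Module.End R L) (hχ : ∑ a, χ a = 0) (hφ : φ ^ p = 1)
    {Y : AddSubgroup L} (h1 : ∀ (r : R), ∀ y ∈ Y, r • y ∈ Y) (h2 : ∀ y ∈ Y, φ y ∈ Y) {x : L}
    (hx : x ∈ Y) : p • x ∈ ⨆ i, Y ⊓ eig χ φ i := by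
  have h1' : ∀ j : ZMod p, φ ((φ ^ j.val) x) = (φ ^ (j + 1).val) x := fun j => by
    rw [ZMod.val_add, ← pow_eq_pow_mod _ hφ, ZMod.val_one, pow_succ', Module.End.mul_apply]
  have h2' : p • x = ∑ i : ZMod p, ∑ j : ZMod p, χ (-(i * j)) • (φ ^ j.val) x := by
    rw [Finset.sum_comm, Finset.sum_eq_single 0]
    · simp
    · intro j _ hj
      rw [← Finset.sum_smul]
      simp_rw [← mul_neg]
      rw [Fintype.sum_equiv (Equiv.mulRight₀ (-j) (neg_ne_zero.2 hj)) (fun i => χ (i * -j)) χ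
        fun _ => rfl, hχ, zero_smul]
    · simp
  rw [h2']
  refine sum_mem fun i _ => AddSubgroup.mem_iSup_of_mem i ⟨sum_mem fun j _ => h1 _ _ ?_, ?_⟩
  · induction j.val with
    | zero => exact hx
    | succ k ih => rw [pow_succ', Module.End.mul_apply]; exact h2 _ ih
  change φ _ = _
  rw [map_sum, Finset.smul_sum]
  refine Fintype.sum_equiv (Equiv.addRight (1 : ZMod p)) _ _ fun j => ?_
  rw [map_smul, h1', smul_smul, ← AddChar.map_add_eq_mul, Equiv.coe_addRight]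
  congr 2
  ring

variable {A : Type*} [CommGroup A] (ρ : A →* Module.End R L)

/-- simultaneous eigenspaces -/
def eigs (v : A → ZMod p) : AddSubgroup L := ⨅ a, eig χ (ρ a) (v a)

theorem mem_eigs {v : A → ZMod p} {x : L} : x ∈ eigs χ ρ v ↔ ∀ a, ρ a x = χ (v a) • x :=
  AddSubgroup.mem_iInf

theorem le_iSup_eigs [Finite A] (hχ : ∑ a, χ a = 0) (hA : ∀ a : A, a ^ p = 1) {n : ℕ}
    (hn : ∀ x : L, n • x = 0) (hnp : n.Coprime p) {Y : AddSubgroup L}
    (h1 : ∀ (r : R), ∀ y ∈ Y, r • y ∈ Y) (h2 : ∀ a, ∀ y ∈ Y, ρ a y ∈ Y) :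
    Y ≤ ⨆ v, Y ⊓ eigs χ ρ v := by
  classical
  have := Fintype.ofFinite A
  have key : ∀ T : Finset A, Y ≤ ⨆ v : A → ZMod p, Y ⊓ ⨅ a ∈ T, eig χ (ρ a) (v a) := fun T => by
    induction T using Finset.induction_on with
    | empty => exact le_iSup_of_le 0 (by simp)
    | insert b T hb ih =>
      refine ih.trans (iSup_le fun v x hx => mem_of_nsmul_mem hn hnp ?_)
      refine SetLike.le_def.1 (iSup_le fun t => ?_) (nsmul_mem_iSup_inf χ (ρ b) hχ
        (Y := Y ⊓ ⨅ a ∈ T, eig χ (ρ a) (v a))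
        (by rw [← map_pow, hA, map_one]) (fun r y hy => ⟨h1 r y hy.1, ?_⟩)
        (fun y hy => ⟨h2 b y hy.1, ?_⟩) hx)
      · refine le_iSup_of_le (Function.update v b t) (le_inf (inf_le_left.trans inf_le_left) ?_)
        rw [Finset.iInf_insert, Function.update_self]
        refine le_inf inf_le_right ((inf_le_left.trans inf_le_right).trans
          (iInf₂_mono fun a ha => ?_))
        rw [Function.update_of_ne (ne_of_mem_of_not_mem ha hb)]
      · refine AddSubgroup.mem_iInf.2 fun a => AddSubgroup.mem_iInf.2 fun ha => ?_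
        have h3 : ρ a y = _ := AddSubgroup.mem_iInf.1 (AddSubgroup.mem_iInf.1 hy.2 a) ha
        change ρ a _ = _
        rw [map_smul, h3, smul_comm]
      · refine AddSubgroup.mem_iInf.2 fun a => AddSubgroup.mem_iInf.2 fun ha => ?_
        have h3 : ρ a y = _ := AddSubgroup.mem_iInf.1 (AddSubgroup.mem_iInf.1 hy.2 a) ha
        change ρ a _ = _
        rw [← Module.End.mul_apply, ← map_mul, mul_comm, map_mul, Module.End.mul_apply, h3,
          map_smul]
  simpa [eigs] using key Finset.univ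

theorem exists_cocyclic (v : A → ZMod p) : ∃ E : Subgroup A, (∃ a, E ⊔ Subgroup.zpowers a = ⊤) ∧
    ∀ e ∈ E, ∀ x ∈ eigs χ ρ v, ρ e x = x := by
  let E : Subgroup A :=
    { carrier := {e | ∀ x ∈ eigs χ ρ v, ρ e x = x}
      one_mem' := fun x _ => by rw [map_one]; rfl
      mul_mem' := fun {a b} ha hb x hx => by rw [map_mul, Module.End.mul_apply, hb x hx, ha x hx]
      inv_mem' := fun {a} ha x hx => by
        conv_lhs => rw [← ha x hx, ← Module.End.mul_apply, ← map_mul, inv_mul_cancel, map_one]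
        rfl }
  refine ⟨E, ?_, fun e he => he⟩
  by_cases h : ∀ a, v a = 0
  · refine ⟨1, eq_top_iff.2 fun a _ => Subgroup.mem_sup_left fun x hx => ?_⟩
    rw [(mem_eigs χ ρ).1 hx, h, AddChar.map_zero_eq_one, one_smul]
  push Not at h
  obtain ⟨b, hb⟩ := h
  refine ⟨b, eq_top_iff.2 fun a _ => ?_⟩
  have h1 : ∀ (j : ℕ), ∀ x ∈ eigs χ ρ v, ρ (b ^ j) x = χ (j * v b) • x := fun j x hx => by
    induction j with
    | zero => simp
    | succ j ih =>
      rw [pow_succ', map_mul, Module.End.mul_apply, ih, map_smul, (mem_eigs χ ρ).1 hx, smul_smul,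
        ← AddChar.map_add_eq_mul]
      congr 2
      push_cast
      ring
  rw [← mul_inv_cancel_right a (b ^ (-(v a) / v b).val)]
  refine mul_mem (Subgroup.mem_sup_left fun x hx => ?_)
    (Subgroup.mem_sup_right (inv_mem (Subgroup.npow_mem_zpowers _ _)))
  rw [map_mul, Module.End.mul_apply, h1 _ x hx, map_smul, (mem_eigs χ ρ).1 hx, smul_smul,
    ← AddChar.map_add_eq_mul, ZMod.natCast_zmod_val, div_mul_cancel₀ _ hb, neg_add_cancel,
    AddChar.map_zero_eq_one, one_smul]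

end Eigen

section Trace

variable {S : Type*} [CommRing S] {K : Type*} [AddCommGroup K] [Module S K] {A : Type*} [Group A]
  [Finite A] (ρ : A →* Module.End S K)

/-- the trace over a subgroup -/
noncomputable def tr (E : Subgroup A) : Module.End S K :=
  ∑ e ∈ (Set.toFinite (E : Set A)).toFinset, ρ e

theorem tr_apply (E : Subgroup A) (x : K) :
    tr ρ E x = ∑ e ∈ (Set.toFinite (E : Set A)).toFinset, ρ e x := by
  rw [tr, LinearMap.sum_apply]

theorem tr_of_fixed {E : Subgroup A} {x : K} (h : ∀ e ∈ E, ρ e x = x) :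
    tr ρ E x = Nat.card E • x := by
  rw [tr_apply, Finset.sum_congr rfl (g := fun _ => x) fun e he => h e (by simpa using he),
    Finset.sum_const, ← Set.ncard_eq_toFinset_card, ← Nat.card_coe_set_eq]
  rfl

theorem apply_tr {E : Subgroup A} {e : A} (he : e ∈ E) (x : K) : ρ e (tr ρ E x) = tr ρ E x := by
  rw [tr_apply, map_sum]
  refine Finset.sum_nbij' (e * ·) (e⁻¹ * ·) (fun a ha => ?_) (fun a ha => ?_) (by simp) (by simp)
    fun a _ => by rw [map_mul, Module.End.mul_apply]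
  · simpa using mul_mem he (by simpa using ha)
  · simpa using mul_mem (inv_mem he) (by simpa using ha)

end Trace

section Ext

variable {S : Type} [CommRing S] (R : Type) [CommRing R] [Algebra S R] {K : Type u} [LieRing K]
  [LieAlgebra S K]

variable (S) in
/-- extension of scalars of an additive subgroup -/
def ext (Y : AddSubgroup K) : AddSubgroup (R ⊗[S] K) :=
  AddSubgroup.closure {z | ∃ r : R, ∃ y ∈ Y, r ⊗ₜ y = z}

variable {R}

theorem tmul_mem_ext {Y : AddSubgroup K} (r : R) {y : K} (hy : y ∈ Y) : r ⊗ₜ y ∈ ext S R Y :=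
  AddSubgroup.subset_closure ⟨r, y, hy, rfl⟩

theorem ext_le {Y : AddSubgroup K} {Z : AddSubgroup (R ⊗[S] K)} :
    ext S R Y ≤ Z ↔ ∀ r : R, ∀ y ∈ Y, r ⊗ₜ y ∈ Z := by
  refine ⟨fun h r y hy => h (tmul_mem_ext r hy), fun h => (AddSubgroup.closure_le _).2 ?_⟩
  rintro _ ⟨r, y, hy, rfl⟩
  exact h r y hy

theorem ext_mono {X Y : AddSubgroup K} (h : X ≤ Y) : ext S R X ≤ ext S R Y :=
  ext_le.2 fun r _ hy => tmul_mem_ext r (h hy)

theorem ext_top : ext S R (⊤ : AddSubgroup K) = ⊤ := by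
  refine eq_top_iff.2 fun x _ => ?_
  induction x using TensorProduct.induction_on with
  | zero => exact zero_mem _
  | add x y hx hy => exact add_mem (hx trivial) (hy trivial)
  | tmul r x => exact tmul_mem_ext r trivial

theorem ext_bot : ext S R (⊥ : AddSubgroup K) = ⊥ :=
  le_bot_iff.1 (ext_le.2 fun r y hy => by rw [AddSubgroup.mem_bot.1 hy, tmul_zero]; exact zero_mem _)

theorem ext_iSup_le {ι : Sort*} (M : ι → AddSubgroup K) :
    ext S R (⨆ i, M i) ≤ ⨆ i, ext S R (M i) :=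
  ext_le.2 fun r _ hy => (iSup_le fun i _ hy => AddSubgroup.mem_iSup_of_mem i (tmul_mem_ext r hy) :
    _ ≤ (⨆ i, ext S R (M i)).comap (TensorProduct.mk S R K r).toAddMonoidHom) hy

theorem lb_ext_le (X Y : AddSubgroup K) : lb (ext S R X) (ext S R Y) ≤ ext S R (lb X Y) :=
  lb_comm_le (lb_le_iff_le_res.2 (ext_le.2 fun r y hy => lb_le.1 (lb_comm_le (lb_le_iff_le_res.2
    (ext_le.2 fun s x hx z hz => by
      obtain ⟨k, rfl⟩ := AddSubgroup.mem_zmultiples_iff.1 hz
      rw [lie_zsmul, LieAlgebra.ExtendScalars.bracket_tmul]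
      exact zsmul_mem (tmul_mem_ext _ (lie_mem_lb hx hy)) k))) _ (AddSubgroup.mem_zmultiples _)))

theorem itb_ext_le (X Y : AddSubgroup K) (n : ℕ) :
    itb (ext S R X) (ext S R Y) n ≤ ext S R (itb X Y n) := by
  induction n with
  | zero => exact le_rfl
  | succ n ih => exact (lb_mono ih le_rfl).trans (lb_ext_le _ _)

theorem Nil.ext {Y : AddSubgroup K} {n : ℕ} (h : Nil Y n) : Nil (ext S R Y) n := by
  have := itb_ext_le (S := S) (R := R) ⊤ Y n
  rwa [ext_top, h, ext_bot, le_bot_iff] at this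

theorem smul_mem_ext {Y : AddSubgroup K} (r : R) {x : R ⊗[S] K} (hx : x ∈ ext S R Y) :
    r • x ∈ ext S R Y :=
  (ext_le.2 fun s _ hy => tmul_mem_ext (r * s) hy :
    _ ≤ (ext S R Y).comap (DistribSMul.toAddMonoidHom _ r)) hx

theorem baseChange_mem_ext {X Y : AddSubgroup K} (f : Module.End S K) (h : ∀ x ∈ X, f x ∈ Y)
    {x : R ⊗[S] K} (hx : x ∈ ext S R X) : f.baseChange R x ∈ ext S R Y :=
  (ext_le.2 fun s _ hy => tmul_mem_ext s (h _ hy) :
    _ ≤ (ext S R Y).comap (f.baseChange R).toAddMonoidHom) hx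

theorem tmul_mem_itb (n : ℕ) : ∀ x ∈ itb (⊤ : AddSubgroup K) ⊤ n,
    (1 : R) ⊗ₜ[S] x ∈ itb (⊤ : AddSubgroup (R ⊗[S] K)) ⊤ n := by
  induction n with
  | zero => exact fun _ _ => trivial
  | succ n ih =>
    refine fun x hx => (lb_le.2 fun x hx y _ => ?_ : _ ≤ (itb (⊤ : AddSubgroup (R ⊗[S] K)) ⊤
      (n + 1)).comap (TensorProduct.mk S R K 1).toAddMonoidHom) hx
    have := lie_mem_lb (ih x hx) (AddSubgroup.mem_top ((1 : R) ⊗ₜ[S] y))
    rwa [LieAlgebra.ExtendScalars.bracket_tmul, one_mul] at this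

end Ext

/-- The nilpotency theorem for Lie rings with an elementary abelian group of operators. -/
theorem nil_of_action (p m s c : ℕ) [hp : Fact p.Prime] : ∃ N : ℕ, ∀ (S R : Type) [CommRing S]
    [CommRing R] [Algebra S R] (χ : AddChar (ZMod p) R) (ε : R →ₗ[S] S), ε 1 = 1 → ∑ a, χ a = 0 →
    ∀ (K : Type u) [LieRing K] [LieAlgebra S K] (A : Type u) [CommGroup A] [Finite A]
    (ρ : A →* Module.End S K) (ι : Type) [Finite ι] (M : ι → AddSubgroup K) (n : ℕ),
    Nat.card A = p ^ c → (∀ a : A, a ^ p = 1) → (∀ a x y, ρ a ⁅x, y⁆ = ⁅ρ a x, ρ a y⁆) →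
    (∀ x : K, n • x = 0) → n.Coprime p → Nat.card ι ≤ s → (∀ a i, ∀ x ∈ M i, ρ a x ∈ M i) →
    ⨆ i, M i = ⊤ → (∀ i, Nil (M i) m) →
    (∀ i j (E : Subgroup A), (∃ a, E ⊔ Subgroup.zpowers a = ⊤) →
      ∃ l, ∀ x ∈ lb (M i) (M j), tr ρ E x ∈ M l) →
    (∀ j, ∃ C : AddSubgroup K, (∀ x ∈ M j, tr ρ ⊤ x ∈ C) ∧ ∀ i, lb (M i) C ≤ M i) →
    Nil (⊤ : AddSubgroup K) N := by
  obtain ⟨N, hN⟩ := nil_of_graded.{u} p m (s * p ^ p ^ c) (p ^ c)
  refine ⟨N, fun S R _ _ _ χ ε hε hχ K _ _ A _ _ ρ ι _ M n hA hp' hρ hn hnp hs hinv htop hnil hcl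
    hnrm => ?_⟩
  let ψ : A →* Module.End R (R ⊗[S] K) :=
    (Module.End.baseChangeHom S R K : Module.End S K →* _).comp ρ
  have hψ : ∀ a, ψ a = (ρ a).baseChange R := fun _ => rfl
  have htr : ∀ E, tr ψ E = (tr ρ E).baseChange R := fun E =>
    (map_sum (Module.End.baseChangeHom S R K) _ _).symm
  have hψl : ∀ a x y, ψ a ⁅x, y⁆ = ⁅ψ a x, ψ a y⁆ := by
    intro a x y
    induction x using TensorProduct.induction_on with
    | zero => simp
    | add x x' hx hx' => rw [add_lie, map_add, map_add, add_lie, hx, hx']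
    | tmul r x =>
    induction y using TensorProduct.induction_on with
    | zero => simp
    | add x x' hx hx' => rw [lie_add, map_add, map_add, lie_add, hx, hx']
    | tmul s y => simp [hψ, hρ]
  have hn' : ∀ x : R ⊗[S] K, n • x = 0 := fun x => by
    induction x using TensorProduct.induction_on with
    | zero => simp
    | add x y hx hy => rw [smul_add, hx, hy, add_zero]
    | tmul r x => rw [← tmul_smul, hn, tmul_zero]
  have hcop : ∀ E : Subgroup A, n.Coprime (Nat.card E) := fun E =>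
    (hnp.pow_right c).coprime_dvd_right (hA ▸ E.card_subgroup_dvd_card)
  obtain ⟨e⟩ : Nonempty (A ≃ Fin (p ^ c)) := ⟨Finite.equivFinOfCardEq hA⟩
  have := Fintype.ofFinite A
  have key := hN (R ⊗[S] K) (ι × (Fin (p ^ c) → ZMod p))
    (fun x => ext S R (M x.1) ⊓ eigs χ ψ (x.2 ∘ e)) A (fun x => x.2 ∘ e) Finset.univ.toList
    (by rw [Finset.length_toList, Finset.card_univ, ← Nat.card_eq_fintype_card, hA])
    (by
      rw [Nat.card_prod, Nat.card_fun, Nat.card_zmod, Nat.card_eq_fintype_card (α := Fin _),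
        Fintype.card_fin]
      exact Nat.mul_le_mul_right _ hs)
    (fun x => (hnil x.1).ext.mono inf_le_left) (fun x y => ?_) (fun x y hy => ?_)
  · refine eq_bot_iff.2 fun x hx => ?_
    have h1 : (⊤ : AddSubgroup (R ⊗[S] K)) ≤ ⨆ x : ι × (Fin (p ^ c) → ZMod p),
        ext S R (M x.1) ⊓ eigs χ ψ (x.2 ∘ e) := by
      rw [← ext_top, ← htop]
      refine (ext_iSup_le M).trans (iSup_le fun i => (le_iSup_eigs χ ψ hχ hp' hn' hnp
        (fun r _ => smul_mem_ext r) fun a _ => baseChange_mem_ext _ (hinv a i)).trans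
          (iSup_le fun v => ?_))
      exact le_iSup_of_le (f := fun x : ι × (Fin (p ^ c) → ZMod p) =>
        ext S R (M x.1) ⊓ eigs χ ψ (x.2 ∘ e)) (i, v ∘ e.symm) (by simp [Function.comp_assoc])
    have h2 := tmul_mem_itb (S := S) (R := R) N x hx
    rw [key.mono h1, AddSubgroup.mem_bot] at h2
    simpa [hε] using congrArg (fun t => TensorProduct.lid S K (LinearMap.rTensor K ε t)) h2
  · obtain ⟨E, hE, h1⟩ := exists_cocyclic χ ψ ((x.2 + y.2) ∘ e)
    obtain ⟨l, hl⟩ := hcl x.1 y.1 E hE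
    have h2 : lb (eigs χ ψ (x.2 ∘ e)) (eigs χ ψ (y.2 ∘ e)) ≤ eigs χ ψ ((x.2 + y.2) ∘ e) :=
      lb_le.2 fun a ha b hb => (mem_eigs χ ψ).2 fun g =>
        isGr_eig χ (ψ g) (hψl g) _ _ a ((mem_eigs χ ψ).1 ha g) b ((mem_eigs χ ψ).1 hb g)
    refine ⟨(l, x.2 + y.2), rfl, fun z hz => ⟨mem_of_nsmul_mem hn' (hcop E) ?_,
      h2 (lb_mono inf_le_right inf_le_right hz)⟩⟩
    rw [← tr_of_fixed ψ fun g hg => h1 g hg z (h2 (lb_mono inf_le_right inf_le_right hz)), htr]
    exact baseChange_mem_ext _ hl (lb_ext_le _ _ (lb_mono inf_le_left inf_le_left hz))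
  · obtain ⟨C, h1, h2⟩ := hnrm y.1
    refine lb_le.2 fun a ha b hb => ?_
    have h3 : ∀ g, ψ g b = b := fun g => by
      rw [(mem_eigs χ ψ).1 hb.2, hy g (by simp), AddChar.map_zero_eq_one, one_smul]
    refine ⟨ext_mono (h2 x.1) (lb_ext_le _ _ (lie_mem_lb ha.1
      (mem_of_nsmul_mem hn' (hcop ⊤) ?_))), (mem_eigs χ ψ).2 fun g => ?_⟩
    · rw [← tr_of_fixed ψ fun g _ => h3 g, htr]
      exact baseChange_mem_ext _ h1 hb.1
    · rw [hψl, h3, (mem_eigs χ ψ).1 ha.2, smul_lie]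

end CfsgLib.LieNil
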