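import Cfsg.Agent.Lib.Sig.LieGrp
import Cfsg.Agent.Lib.CoprimeAut

/-!
# Coprime action of elementary abelian groups: theorems of Acciarri and Shumyatsky
-/

set_option autoImplicit false

namespace CfsgLib.LieNil

open Subgroup Cfsg CfsgLib.Cop CfsgLib.H1
open scoped commutatorElement

variable {X : Type} [Group X] {A : Subgroup X}

/-- closure property of two families -/
def Clo (A : Subgroup X) {ι κ : Type} (H : ι → Subgroup X) (J : κ → Subgroup X) : Prop :=
  ∀ i j E, Coc A E → ∃ l, ⁅H i, J j⁆ ⊓ centralizer (E : Set X) ≤ H l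

/-- the commutator family -/
def step (A : Subgroup X) {ι κ : Type} (H : ι → Subgroup X) (J : κ → Subgroup X) :
    ι × κ × {E // Coc A E} → Subgroup X :=
  fun x => ⁅H x.1, J x.2.1⁆ ⊓ centralizer (x.2.2.1 : Set X)

variable {ι κ : Type} {H : ι → Subgroup X} {J : κ → Subgroup X}

theorem Clo.step_le (h : Clo A H J) (x : ι × κ × {E // Coc A E}) : ∃ l, step A H J x ≤ H l :=
  h _ _ _ x.2.2.2

theorem Clo.step_left (h : Clo A H J) : Clo A (step A H J) J := fun x j E hE =>
  (h.step_le x).elim fun l hl => ⟨(l, j, ⟨E, hE⟩), inf_le_inf_right _ (commutator_mono hl le_rfl)⟩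

theorem Clo.step_self (h : Clo A H H) : Clo A (step A H H) (step A H H) := fun x y E hE =>
  (h.step_le x).elim fun l hl => (h.step_le y).elim fun l' hl' =>
    ⟨(l, l', ⟨E, hE⟩), inf_le_inf_right _ (commutator_mono hl hl')⟩

theorem Coc.le_normalizer_centralizer (hA : IsMulCommutative A) {E : Subgroup X} (h : Coc A E) :
    A ≤ normalizer ((centralizer (E : Set X) : Subgroup X) : Set X) :=
  H1.le_normalizer_centralizer (((le_centralizer_iff_isMulCommutative.2 hA).trans
    (centralizer_le h.1)).trans (centralizer_le_normalizer _))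

theorem step_norm (hA : IsMulCommutative A) (hH : ∀ i, A ≤ normalizer (H i : Set X))
    (hJ : ∀ j, A ≤ normalizer (J j : Set X)) (x : ι × κ × {E // Coc A E}) :
    A ≤ normalizer (step A H J x : Set X) :=
  le_normalizer_inf (le_normalizer_commutator (hH _) (hJ _)) (x.2.2.2.le_normalizer_centralizer hA)

variable [Finite X]

theorem iSup_step (hA : IsMulCommutative A) (hH : ∀ i, A ≤ normalizer (H i : Set X))
    (hJ : ∀ j, A ≤ normalizer (J j : Set X)) (hle : ⨆ i, H i ≤ ⨆ j, J j)
    (hcop : (Nat.card A).Coprime (Nat.card ↥(⨆ j, J j))) (h : Clo A H J) :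
    ⨆ x, step A H J x = ⁅⨆ i, H i, ⨆ j, J j⁆ := by
  refine le_antisymm (iSup_le fun x => inf_le_left.trans
    (commutator_mono (le_iSup _ _) (le_iSup _ _))) ?_
  have h1 : ∀ i j, ⁅H i, J j⁆ ≤ ⨆ x, step A H J x := fun i j =>
    le_of_cocyclic_centralizer_le hA (le_normalizer_commutator (hH i) (hJ j))
      (hcop.coprime_dvd_right (card_dvd_of_le ((commutator_mono ((le_iSup _ i).trans hle)
        (le_iSup _ j)).trans (commutator_le_self _))))
      fun E h1 h2 => le_iSup (step A H J) (i, j, ⟨E, h1, h2⟩)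
  have h2 : ⨆ j, J j ≤ normalizer ((⨆ x, step A H J x : Subgroup X) : Set X) :=
    iSup_le fun j g hg => mem_normalizer_of_conj_mem fun _ hy => (iSup_le fun x y hy => by
      obtain ⟨l, hl⟩ := h.step_le x
      change g * y * g⁻¹ ∈ ⨆ x, step A H J x
      rw [show g * y * g⁻¹ = ⁅y, g⁆⁻¹ * y by simp [commutatorElement_def, mul_assoc]]
      exact mul_mem (inv_mem (h1 l j (commutator_mem_commutator (hl hy) hg)))
        (le_iSup (step A H J) x hy) :
          _ ≤ (⨆ x, step A H J x).comap (MulAut.conj g).toMonoidHom) hy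
  refine (le_centMod_iff.1 (iSup_le fun j => le_centMod_iff.2 ⟨(le_iSup _ j).trans h2, ?_⟩)).2
  rw [commutator_comm]
  exact (le_centMod_iff.1 (iSup_le fun i => le_centMod_iff.2
    ⟨((le_iSup _ i).trans hle).trans h2, commutator_comm (H i) _ ▸ h1 i j⟩)).2

theorem card_coc_le (A : Subgroup X) : Nat.card {E // Coc A E} ≤ 2 ^ Nat.card A := by
  have := Fintype.ofFinite A
  rw [Nat.card_eq_fintype_card (α := A), ← Fintype.card_set, ← Nat.card_eq_fintype_card]
  refine Nat.card_le_card_of_injective (fun E => (E.1.subgroupOf A : Set A)) fun E F h => ?_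
  apply Subtype.ext
  rw [← map_subtype_subgroupOf E.2.1, ← map_subtype_subgroupOf F.2.1, SetLike.coe_injective h]

theorem isNilpotent_of_family (hA : IsMulCommutative A) {m : ℕ} {W : Subgroup X}
    (hW : Group.IsSolvable W) (hAW : A ≤ normalizer (W : Set X))
    (hcop : (Nat.card A).Coprime (Nat.card W)) (hH : ∀ i, A ≤ normalizer (H i : Set X))
    (hs : ⨆ i, H i = W) (hc : Clo A H H)
    (hn : ∀ i E, Coc A E → iterCommutator (W ⊓ centralizer (E : Set X)) (H i) m = ⊥) :
    Group.IsNilpotent W := by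
  induction W using WellFoundedLT.induction generalizing ι with
  | ind W ih =>
  by_contra h0
  have hle := commutator_le_self W
  have h1 : Group.IsNilpotent ↥⁅W, W⁆ := by
    refine ih _ (Sig.commutator_self_lt hW fun h => h0 (h ▸ inferInstance))
      (isSolvable_of_le hW hle) (le_normalizer_commutator hAW hAW)
      (hcop.coprime_dvd_right (card_dvd_of_le hle)) (step_norm hA hH hH)
      (by rw [iSup_step hA hH hH le_rfl (hs ▸ hcop) hc, hs]) hc.step_self fun x E hE => ?_
    obtain ⟨l, hl⟩ := hc.step_le x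
    exact le_bot_iff.1 ((iterCommutator_mono (inf_le_inf_right _ hle) hl m).trans (hn l E hE).le)
  obtain ⟨n, h2⟩ := WellFoundedLT.antitone_chain_condition
    (f := fun n => W.lowerCentralSeries (n + 1))
      fun a b h => W.lowerCentralSeries_antitone (Nat.succ_le_succ h)
  set R := W.lowerCentralSeries (n + 1) with hR
  have h3 : R = ⁅R, W⁆ := h2 (n + 1) (Nat.le_succ n)
  have h4 : R ≠ ⊥ := fun h => h0 ((isNilpotent_iff_lowerCentralSeries W).2 ⟨_, h⟩)
  have h5 : R ≤ ⁅W, W⁆ := commutator_mono (lcs_le W n) le_rfl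
  have hWR : W ≤ normalizer (R : Set X) := W.self_le_normalizer_lowerCentralSeries _
  have h6 : ⁅R, ⁅W, W⁆⁆ < R := by
    refine lt_of_le_of_ne (commutator_le_left_of_le_normalizer (hle.trans hWR)) fun h => h4 ?_
    obtain ⟨k, hk⟩ := (isNilpotent_iff_lowerCentralSeries _).1 h1
    have : ∀ j, R ≤ (⁅W, W⁆).lowerCentralSeries j := fun j => by
      induction j with
      | zero => exact h5
      | succ j ihj => exact h.ge.trans (commutator_mono ihj le_rfl)
    exact le_bot_iff.1 (hk ▸ this k)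
  obtain ⟨R₀, h7, h8⟩ := Finite.exists_le_maximal
    (p := fun U => U < R ∧ W ≤ normalizer (U : Set X))
    ⟨h6, le_normalizer_commutator hWR (le_normalizer_commutator le_normalizer le_normalizer)⟩
  have hHW : ∀ i, H i ≤ W := fun i => hs ▸ le_iSup _ i
  refine h8.1.1.not_ge (h3.le.trans (le_centMod_iff.1 (hs.ge.trans (iSup_le fun i =>
    le_centMod_iff.2 ⟨(hHW i).trans h8.1.2, ?_⟩))).2)
  by_contra h9
  have h10 : ⁅R, H i⁆ ≤ R := commutator_le_left_of_le_normalizer ((hHW i).trans hWR)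
  have h11 : R ≤ ⁅R, H i⁆ ⊔ R₀ := by
    by_contra h11
    refine h9 (le_sup_left.trans (h8.2 ⟨lt_of_le_of_ne (sup_le h10 h8.1.1.le)
      fun h => h11 h.ge, ?_⟩ le_sup_right))
    refine fun g hg => mem_normalizer_of_conj_mem fun _ hy => (sup_le (commutator_le.2
      fun x hx y hy => ?_) fun y hy => mem_sup_right (conj_mem_of_mem_normalizer (h8.1.2 hg) hy) :
        _ ≤ (⁅R, H i⁆ ⊔ R₀).comap (MulAut.conj g).toMonoidHom) hy
    have h12 := conj_mem_of_mem_normalizer (hWR hg) hx
    change g * ⁅x, y⁆ * g⁻¹ ∈ ⁅R, H i⁆ ⊔ R₀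
    rw [show g * ⁅x, y⁆ * g⁻¹ = ⁅g * x * g⁻¹, ⁅g, y⁆⁆ *
      (⁅g, y⁆ * ⁅g * x * g⁻¹, y⁆ * ⁅g, y⁆⁻¹ * ⁅g * x * g⁻¹, y⁆⁻¹) * ⁅g * x * g⁻¹, y⁆ by
        simp [commutatorElement_def, mul_assoc]]
    have h13 := commutator_mem_commutator hg (hHW i hy)
    refine mul_mem (mem_sup_right (mul_mem (h7 (commutator_mem_commutator h12 h13)) (h7 ?_)))
      (mem_sup_left (commutator_mem_commutator h12 hy))
    rw [commutator_comm]
    exact commutator_mem_commutator h13 (h10 (commutator_mem_commutator h12 hy))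
  let K : ℕ → Subgroup X := fun t => Nat.rec R₀ (fun _ U => R ⊓ centMod (H i) U) t
  have hRR : ⁅R, R⁆ ≤ R₀ := (commutator_mono le_rfl h5).trans h7
  have hK : ∀ t, R₀ ≤ K t ∧ K t ≤ R := fun t => by
    induction t with
    | zero => exact ⟨le_rfl, h8.1.1.le⟩
    | succ t iht =>
      exact ⟨le_inf h8.1.1.le (le_centMod_iff.2 ⟨h8.1.1.le.trans
        (le_normalizer_of_commutator_le (hRR.trans iht.1) iht.2), (commutator_le_of_le_normalizer
          ((hHW i).trans h8.1.2)).trans iht.1⟩), inf_le_left⟩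
  have hK1 : ∀ t C, C ≤ R → iterCommutator C (H i) t = ⊥ → C ≤ K t := fun t => by
    induction t with
    | zero => exact fun C _ h => (show C = ⊥ from h) ▸ bot_le
    | succ t iht =>
      refine fun C hC h => le_inf hC (le_centMod_iff.2 ⟨hC.trans
        (le_normalizer_of_commutator_le (hRR.trans (hK t).1) (hK t).2), ?_⟩)
      rw [commutator_comm]
      exact iht _ ((commutator_mono hC le_rfl).trans h10) (iterCommutator_succ' C _ t ▸ h)
  have hK2 : ∀ t, ¬ R ≤ K t := fun t => by
    induction t with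
    | zero => exact h8.1.1.not_ge
    | succ t iht =>
      exact fun h => iht (h11.trans (sup_le (commutator_comm (H i) R ▸
        (le_centMod_iff.1 (h.trans inf_le_right)).2) (hK t).1))
  refine hK2 m (le_of_cocyclic_centralizer_le hA (le_normalizer_lcs hAW _)
    (hcop.coprime_dvd_right (card_dvd_of_le (lcs_le W _))) fun E h12 h13 => hK1 m _ inf_le_left
      (le_bot_iff.1 ((iterCommutator_mono (inf_le_inf_right _ (lcs_le W _)) le_rfl m).trans
        (hn i E ⟨h12, h13⟩).le)))

omit [Finite X] in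
theorem iterCommutator_self (U : Subgroup X) (n : ℕ) :
    iterCommutator U U n = U.lowerCentralSeries n := by
  induction n with
  | zero => rfl
  | succ n ih => exact congrArg (⁅·, U⁆) ih

/-- a family of special subgroups -/
structure Fam (p : ℕ) (A G : Subgroup X) (w : Subgroup X → Subgroup X) (t : ℕ) {ι : Type}
    (H : ι → Subgroup X) : Prop where
  norm : ∀ i, A ≤ normalizer (H i : Set X)
  cent : ∀ i, G ⊓ centralizer (A : Set X) ≤ normalizer (H i : Set X)
  span : ⨆ i, H i = w G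
  loc : ∀ i, ∃ B ≤ A, B.relIndex A ≤ p ^ t ∧ ∀ a ∈ B, H i ≤ w (G ⊓ centralizer ({a} : Set X))

variable {p : ℕ} [hp : Fact p.Prime] {G : Subgroup X}

theorem Coc.relIndex_le (hA : IsElementaryAbelian p A) {E : Subgroup X} (h : Coc A E) :
    E.relIndex A ≤ p := by
  obtain ⟨h1, a, ha, h2⟩ := h
  have h3 : Nat.card ↥(E ⊔ zpowers a) ∣ _ := card_sup_dvd_mul (h1.trans (((IsElementaryAbelian.le_centralizer hA).trans
    (centralizer_le (zpowers_le_of_mem ha))).trans (centralizer_le_normalizer _)))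
  rw [h2, ← card_mul_relIndex h1, Nat.mul_dvd_mul_iff_left Nat.card_pos, Nat.card_zpowers] at h3
  exact Nat.le_of_dvd hp.1.pos (h3.trans (orderOf_dvd_of_pow_eq_one (hA.2 a ha)))

theorem fam_zero (hA : IsElementaryAbelian p A) (hAG : A ≤ normalizer (G : Set X))
    (hcop : (Nat.card A).Coprime (Nat.card G)) :
    Fam p A G id 1 fun E : {E // Coc A E} => G ⊓ centralizer (E.1 : Set X) where
  norm := fun E => le_normalizer_inf hAG (E.2.le_normalizer_centralizer hA.1)
  cent := fun E => (inf_le_inf_left _ (centralizer_le E.2.1)).trans le_normalizer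
  span := le_antisymm (iSup_le fun _ => inf_le_left) (le_of_cocyclic_centralizer_le hA.1 hAG hcop
    fun E h1 h2 => le_iSup (fun E : {E // Coc A E} => G ⊓ centralizer (E.1 : Set X)) ⟨E, h1, h2⟩)
  loc := fun E => ⟨E, E.2.1, (pow_one p).symm ▸ E.2.relIndex_le hA, fun _ ha =>
    inf_le_inf_left _ (centralizer_le (Set.singleton_subset_iff.2 ha))⟩

omit hp in
theorem Fam.step (hA : IsMulCommutative A) (hcop : (Nat.card A).Coprime (Nat.card G))
    {w w' : Subgroup X → Subgroup X} {t t' : ℕ} (h : Fam p A G w t H) (h' : Fam p A G w' t' J)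
    (h1 : w G ≤ w' G) (h2 : w' G ≤ G) (hc : Clo A H J) :
    Fam p A G (fun U => ⁅w U, w' U⁆) (t + t') (step A H J) where
  norm := step_norm hA h.norm h'.norm
  cent := fun x => le_normalizer_inf (le_normalizer_commutator (h.cent _) (h'.cent _))
    ((inf_le_right.trans (centralizer_le x.2.2.2.1)).trans le_normalizer)
  span := by
    rw [iSup_step hA h.norm h'.norm (by rwa [h.span, h'.span])
      (h'.span ▸ hcop.coprime_dvd_right (card_dvd_of_le h2)) hc, h.span, h'.span]
  loc := fun x => by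
    obtain ⟨B, k1, k2, k3⟩ := h.loc x.1
    obtain ⟨B', -, k2', k3'⟩ := h'.loc x.2.1
    exact ⟨B ⊓ B', inf_le_left.trans k1, relIndex_inf_le.trans
      (pow_add p t t' ▸ Nat.mul_le_mul k2 k2'), fun a ha =>
        inf_le_left.trans (commutator_mono (k3 a ha.1) (k3' a ha.2))⟩

theorem lcs_eq_bot_of_fam (p k c s t : ℕ) [hp : Fact p.Prime] (ht : t + 2 ≤ k) : ∃ N : ℕ,
    ∀ (X : Type) [Group X] [Finite X] (A G : Subgroup X) (ι : Type) [Finite ι]
    (H : ι → Subgroup X) (w : Subgroup X → Subgroup X), IsElementaryAbelian p A →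
    Nat.card A = p ^ k → A ≤ normalizer (G : Set X) → (Nat.card G).Coprime p →
    Group.IsSolvable G → Nat.card ι ≤ s → Fam p A G w t H → Clo A H H → (∀ U, w U ≤ U) →
    (∀ U : Subgroup X, normalizer (U : Set X) ≤ normalizer (w U : Set X)) →
    (∀ a ∈ A, a ≠ 1 → (w (G ⊓ centralizer ({a} : Set X))).lowerCentralSeries c = ⊥) →
    (w G).lowerCentralSeries N = ⊥ := by
  obtain ⟨N, hN⟩ := lcs_eq_bot_of_family.{0} p (c + 1) s k
  refine ⟨N, fun X _ _ A G ι _ H w hA hk hAG hG hsol hs hF hc hw hn h => ?_⟩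
  have hW := hG.coprime_dvd_left (card_dvd_of_le (hw G))
  have key : ∀ i E, Coc A E →
      iterCommutator (w G ⊓ centralizer (E : Set X)) (H i) (c + 1) = ⊥ := fun i E hE => by
    obtain ⟨B, k1, k2, k3⟩ := hF.loc i
    have h1 : B ⊓ E ≠ ⊥ := fun h1 => by
      have h2 := relIndex_inf_le.trans (Nat.mul_le_mul k2 (hE.relIndex_le hA))
      rw [h1, relIndex_bot_left, hk, ← pow_succ, Nat.pow_le_pow_iff_right hp.1.one_lt] at h2
      omega
    obtain ⟨a, ha, h2⟩ := (bot_or_exists_ne_one _).resolve_left h1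
    refine le_bot_iff.1 ((iterCommutator_mono (inf_le_inf (hw G)
      (centralizer_le (Set.singleton_subset_iff.2 ha.2))) (k3 a ha.1) _).trans
        (le_trans ?_ (h a (k1 ha.1) h2).le))
    rw [iterCommutator_succ']
    refine (iterCommutator_mono (commutator_le_of_le_normalizer (le_normalizer.trans (hn _)))
      le_rfl c).trans (iterCommutator_self _ c).le
  exact hN X A (w G) ι H hA hk (hAG.trans (hn G)) hW (isNilpotent_of_family hA.1
    (isSolvable_of_le hsol (hw G)) (hAG.trans (hn G)) (hk ▸ hW.symm.pow_left k) hF.norm hF.span hc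
      key) hs hF.norm hF.span.ge (fun i => hF.span ▸ le_iSup _ i) hc
    (fun i => (inf_le_inf_right _ (hw G)).trans (hF.cent i)) key

/-- the derived series of a subgroup -/
def derA {Y : Type*} [Group Y] : ℕ → Subgroup Y → Subgroup Y
  | 0, U => U
  | n + 1, U => ⁅derA n U, derA n U⁆

theorem map_derA {Y Z : Type*} [Group Y] [Group Z] (f : Y →* Z) (U : Subgroup Y) (n : ℕ) :
    (derA n U).map f = derA n (U.map f) := by
  induction n with
  | zero => rfl
  | succ n ih => rw [derA, derA, Subgroup.map_commutator, ih]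

theorem derA_top {Y : Type*} [Group Y] (n : ℕ) : derA n ⊤ = derivedSeries Y n := by
  induction n with
  | zero => rfl
  | succ n ih => rw [derA, ih, derivedSeries_succ]

omit [Finite X] in
theorem derA_le (n : ℕ) (U : Subgroup X) : derA n U ≤ U := by
  induction n with
  | zero => exact le_rfl
  | succ n ih => exact (commutator_le_self _).trans ih

omit [Finite X] in
theorem normalizer_le_derA (n : ℕ) (U : Subgroup X) :
    normalizer (U : Set X) ≤ normalizer (derA n U : Set X) := by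
  induction n with
  | zero => exact le_rfl
  | succ n ih => exact le_normalizer_commutator ih ih

omit [Finite X] in
theorem isSolvable_of_commutator {U : Subgroup X} (h : Group.IsSolvable ↥⁅U, U⁆) :
    Group.IsSolvable U := by
  refine isSolvable_of_normal_of_quotient (_root_.commutator U) (isSolvable_of_equiv
    ((_root_.commutator U).equivMapOfInjective _ U.subtype_injective).symm ?_)
      (inferInstanceAs (Group.IsSolvable (Abelianization U)))
  rwa [map_subtype_commutator]

theorem exists_fam_der (p k d : ℕ) [Fact p.Prime] : ∃ s : ℕ, ∀ (X : Type) [Group X] [Finite X]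
    (A G : Subgroup X), IsElementaryAbelian p A → Nat.card A = p ^ k →
    A ≤ normalizer (G : Set X) → (Nat.card G).Coprime p → ∃ (ι : Type) (_ : Finite ι)
      (H : ι → Subgroup X), Nat.card ι ≤ s ∧ Fam p A G (derA d) (2 ^ d) H ∧ Clo A H H := by
  induction d with
  | zero =>
    exact ⟨2 ^ p ^ k, fun X _ _ A G hA hk hAG hG => ⟨_, inferInstance, _, hk ▸ card_coc_le A,
      fam_zero hA hAG (hk ▸ hG.symm.pow_left k), fun i j E hE => ⟨⟨E, hE⟩, inf_le_inf_right _
        ((commutator_mono inf_le_left inf_le_left).trans (commutator_le_self G))⟩⟩⟩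
  | succ d ih =>
    obtain ⟨s, hs⟩ := ih
    refine ⟨s * (s * 2 ^ p ^ k), fun X _ _ A G hA hk hAG hG => ?_⟩
    obtain ⟨ι, _, H, h1, h2, h3⟩ := hs X A G hA hk hAG hG
    refine ⟨_, inferInstance, step A H H, ?_, ?_, h3.step_self⟩
    · rw [Nat.card_prod, Nat.card_prod]
      exact Nat.mul_le_mul h1 (Nat.mul_le_mul h1 (hk ▸ card_coc_le A))
    · rw [pow_succ, mul_two]
      exact h2.step hA.1 (hk ▸ hG.symm.pow_left k) h2 le_rfl (derA_le d G) h3

theorem exists_fam_lcs (p k d : ℕ) [Fact p.Prime] : ∃ s : ℕ, ∀ (X : Type) [Group X] [Finite X]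
    (A G : Subgroup X), IsElementaryAbelian p A → Nat.card A = p ^ k →
    A ≤ normalizer (G : Set X) → (Nat.card G).Coprime p → ∃ (ι : Type) (_ : Finite ι)
      (H : ι → Subgroup X), Nat.card ι ≤ s ∧ Fam p A G (·.lowerCentralSeries d) (d + 1) H ∧
        Clo A H (fun E : {E // Coc A E} => G ⊓ centralizer (E.1 : Set X)) ∧
        ∀ i, ∃ E, Coc A E ∧ H i ≤ G ⊓ centralizer (E : Set X) := by
  induction d with
  | zero =>
    exact ⟨2 ^ p ^ k, fun X _ _ A G hA hk hAG hG => ⟨_, inferInstance, _, hk ▸ card_coc_le A,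
      fam_zero hA hAG (hk ▸ hG.symm.pow_left k), fun i j E hE => ⟨⟨E, hE⟩, inf_le_inf_right _
        ((commutator_mono inf_le_left inf_le_left).trans (commutator_le_self G))⟩,
          fun E => ⟨E.1, E.2, le_rfl⟩⟩⟩
  | succ d ih =>
    obtain ⟨s, hs⟩ := ih
    refine ⟨s * (2 ^ p ^ k * 2 ^ p ^ k), fun X _ _ A G hA hk hAG hG => ?_⟩
    obtain ⟨ι, _, H, h1, h2, h3, h4⟩ := hs X A G hA hk hAG hG
    have hcop : (Nat.card A).Coprime (Nat.card G) := hk ▸ hG.symm.pow_left k
    refine ⟨_, inferInstance, step A H _, ?_, h2.step hA.1 hcop (fam_zero hA hAG hcop)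
      (lcs_le G d) le_rfl h3, h3.step_left, fun x => ⟨_, x.2.2.2, inf_le_inf_right _ ?_⟩⟩
    · rw [Nat.card_prod, Nat.card_prod]
      exact Nat.mul_le_mul h1 (Nat.mul_le_mul (hk ▸ card_coc_le A) (hk ▸ card_coc_le A))
    · obtain ⟨E, -, h5⟩ := h4 x.1
      exact (commutator_mono (h5.trans inf_le_left) inf_le_left).trans (commutator_le_self G)

theorem isSolvable_of_lcs (hA : IsElementaryAbelian p A) {k : ℕ} (hk : Nat.card A = p ^ k)
    (h3 : 3 ≤ k) (hAG : A ≤ normalizer (G : Set X)) (hG : (Nat.card G).Coprime p) {c : ℕ}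
    (w : Subgroup X → Subgroup X) (hw : k = 3 → w = id)
    (hs : ∀ U, Group.IsSolvable (w U) → Group.IsSolvable U)
    (h : ∀ a ∈ A, a ≠ 1 → (w (G ⊓ centralizer ({a} : Set X))).lowerCentralSeries c = ⊥) :
    Group.IsSolvable G := by
  have h1 := fun a ha h1 => (isNilpotent_iff_lowerCentralSeries _).2 ⟨c, h a ha h1⟩
  rcases h3.eq_or_lt with h4 | h4
  · rw [hw h4.symm] at h1
    have := Sig.isNilpotent_of_rank_three hA (by rw [hk, h4]) hAG hG h1
    infer_instance
  · exact Sig.isSolvable_of_rank_four hA (hk ▸ Nat.pow_le_pow_right hp.1.pos h4) hAG hG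
      fun a ha h2 => hs _ (haveI := h1 a ha h2; inferInstance)

theorem der_bound (p k c d : ℕ) [Fact p.Prime] (hd : 2 ^ d + 2 ≤ k) : ∃ N : ℕ,
    ∀ (X : Type) [Group X] [Finite X] (A G : Subgroup X), IsElementaryAbelian p A →
    Nat.card A = p ^ k → A ≤ normalizer (G : Set X) → (Nat.card G).Coprime p →
    (∀ a ∈ A, a ≠ 1 → (derA d (G ⊓ centralizer ({a} : Set X))).lowerCentralSeries c = ⊥) →
    (derA d G).lowerCentralSeries N = ⊥ := by
  obtain ⟨s, hs⟩ := exists_fam_der p k d
  obtain ⟨N, hN⟩ := lcs_eq_bot_of_fam p k c s _ hd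
  refine ⟨N, fun X _ _ A G hA hk hAG hG h => ?_⟩
  obtain ⟨ι, _, H, h1, h2, h3⟩ := hs X A G hA hk hAG hG
  have h4 := Nat.one_le_two_pow (n := d)
  refine hN X A G ι H _ hA hk hAG hG (isSolvable_of_lcs hA hk (by omega) hAG hG _ (fun h5 => ?_)
    (fun U => ?_) h) h1 h2 h3 (derA_le d) (normalizer_le_derA d) h
  · rcases d with _ | d
    · rfl
    · have := Nat.one_le_two_pow (n := d)
      omega
  · clear * -
    induction d with
    | zero => exact id
    | succ d ih => exact fun h => ih (isSolvable_of_commutator h)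

theorem lcs_bound (p k c : ℕ) [Fact p.Prime] (hd : 3 ≤ k) : ∃ N : ℕ,
    ∀ (X : Type) [Group X] [Finite X] (A G : Subgroup X), IsElementaryAbelian p A →
    Nat.card A = p ^ k → A ≤ normalizer (G : Set X) → (Nat.card G).Coprime p →
    (∀ a ∈ A, a ≠ 1 → ((G ⊓ centralizer ({a} : Set X)).lowerCentralSeries
      (k - 3)).lowerCentralSeries c = ⊥) →
    (G.lowerCentralSeries (k - 3)).lowerCentralSeries N = ⊥ := by
  obtain ⟨s, hs⟩ := exists_fam_lcs p k (k - 3)
  obtain ⟨N, hN⟩ := lcs_eq_bot_of_fam p k c s (k - 3 + 1) (by omega)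
  refine ⟨N, fun X _ _ A G hA hk hAG hG h => ?_⟩
  obtain ⟨ι, _, H, h1, h2, h3, h4⟩ := hs X A G hA hk hAG hG
  refine hN X A G ι H _ hA hk hAG hG (isSolvable_of_lcs hA hk hd hAG hG
    (·.lowerCentralSeries (k - 3)) (fun h5 => by rw [h5]; rfl) (fun U => ?_) h) h1 h2
    (fun i j E hE => ?_) (fun U => lcs_le U _) (fun U => le_normalizer_lcs le_rfl _) h
  · induction k - 3 with
    | zero => exact id
    | succ d ih =>
      exact fun h => ih (isSolvable_of_commutator (isSolvable_of_le h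
        (commutator_mono le_rfl (lcs_le U d))))
  · obtain ⟨F, hF, h5⟩ := h4 j
    obtain ⟨l, hl⟩ := h3 i ⟨F, hF⟩ E hE
    exact ⟨l, (inf_le_inf_right _ (commutator_mono le_rfl h5)).trans hl⟩

open CfsgLib.CopAut SemidirectProduct in
/-- transfer of a statement on ambient groups to groups of automorphisms -/
theorem aut_transfer {k c N : ℕ} (w : ∀ (Y : Type) [Group Y], Subgroup Y → Subgroup Y)
    (hw : ∀ (Y Z : Type) [Group Y] [Group Z] (f : Y →* Z) (U : Subgroup Y),
      (w Y U).map f = w Z (U.map f))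
    (h : ∀ (X : Type) [Group X] [Finite X] (A G : Subgroup X), IsElementaryAbelian p A →
      Nat.card A = p ^ k → A ≤ normalizer (G : Set X) → (Nat.card G).Coprime p →
      (∀ a ∈ A, a ≠ 1 → (w X (G ⊓ centralizer ({a} : Set X))).lowerCentralSeries c = ⊥) →
      (w X G).lowerCentralSeries N = ⊥)
    (G : Type) [Group G] [Finite G] (hG : (Nat.card G).Coprime p) (A : Subgroup (MulAut G))
    (hA : IsElementaryAbelian p A) (hk : Nat.card A = p ^ k)
    (hc : ∀ a ∈ A, a ≠ 1 → (w ↥((a : MulAut G).toMonoidHom.eqLocus (MonoidHom.id G))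
      ⊤).lowerCentralSeries c = ⊥) : (w G ⊤).lowerCentralSeries N = ⊥ := by
  have := finite_semidirect (φ := A.subtype)
  have h0 : IsElementaryAbelian p (⊤ : Subgroup A) :=
    ⟨haveI := hA.1; inferInstance, fun a _ => Subtype.ext (hA.2 a a.2)⟩
  have h1 := h _ (R A.subtype ⊤) (L A.subtype ⊤) (isElementaryAbelian_map h0 _)
    (card_R_top.trans hk)
    (R_top_le_normalizer_iff.2 inv_top) (by rwa [card_L_top]) (by
      rintro _ ⟨a, -, rfl⟩ h1
      have h2 := congrArg (Subgroup.map ((inl : G →* G ⋊[A.subtype] A).comp (Subgroup.subtype _)))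
        (hc a a.2 fun h => h1 (by rw [show a = 1 from Subtype.ext h, map_one]))
      rw [map_lowerCentralSeries, hw, Subgroup.map_bot] at h2
      rw [← h2]
      congr 2
      refine le_antisymm ?_ ?_
      · rintro _ ⟨⟨g, -, rfl⟩, h3⟩
        exact ⟨⟨g, inl_mem_centralizer_inr_iff.1 h3⟩, trivial, rfl⟩
      · rintro _ ⟨g, -, rfl⟩
        exact ⟨⟨g, trivial, rfl⟩, inl_mem_centralizer_inr_iff.2 g.2⟩)
  rwa [← hw, ← map_lowerCentralSeries, Subgroup.map_eq_bot_iff_of_injective _ inl_injective] at h1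

end CfsgLib.LieNil
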