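import Cfsg.Agent.Lib.Sig.LieAct
import Cfsg.Agent.Lib.Sig.SigCor

/-!
# Nilpotent groups generated by a bounded family of invariant subgroups
-/

set_option autoImplicit false

namespace CfsgLib.LieNil

open Subgroup Cfsg CfsgLib.Cop CfsgLib.H1 AssocLie HigmanLie
open scoped commutatorElement

universe u

variable {X : Type u} [Group X]

/-- `E` has cyclic quotient in `A` -/
def Coc (A E : Subgroup X) : Prop := E ≤ A ∧ ∃ a ∈ A, E ⊔ zpowers a = A

theorem iterCommutator_mono {U V U' V' : Subgroup X} (h1 : U ≤ U') (h2 : V ≤ V') (n : ℕ) :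
    iterCommutator U V n ≤ iterCommutator U' V' n := by
  induction n with
  | zero => exact h1
  | succ n ih => exact commutator_mono ih h2

theorem iterCommutator_succ' (U V : Subgroup X) (n : ℕ) :
    iterCommutator U V (n + 1) = iterCommutator ⁅U, V⁆ V n := by
  induction n with
  | zero => rfl
  | succ n ih => exact congrArg (⁅·, V⁆) ih

/-- the image of a subgroup in the associated Lie ring -/
noncomputable def LM (W Y : Subgroup X) : AddSubgroup (AL W.lowerCentralSeries) :=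
  AddSubgroup.closure {z | ∃ n, ∃ g ∈ Y ⊓ W.lowerCentralSeries n, ι _ n g = z}

variable {W : Subgroup X}

theorem ι_mem_LM {Y : Subgroup X} {n : ℕ} {g : X} (h1 : g ∈ Y) (h2 : g ∈ W.lowerCentralSeries n) :
    ι _ n g ∈ LM W Y := AddSubgroup.subset_closure ⟨n, g, ⟨h1, h2⟩, rfl⟩

theorem LM_le {Y : Subgroup X} {Z : AddSubgroup (AL W.lowerCentralSeries)} :
    LM W Y ≤ Z ↔ ∀ n, ∀ g ∈ Y, g ∈ W.lowerCentralSeries n → ι _ n g ∈ Z := by
  refine ⟨fun h n g h1 h2 => h (ι_mem_LM h1 h2), fun h => (AddSubgroup.closure_le _).2 ?_⟩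
  rintro _ ⟨n, g, hg, rfl⟩
  exact h n g hg.1 hg.2

theorem LM_mono {Y Y' : Subgroup X} (h : Y ≤ Y') : LM W Y ≤ LM W Y' :=
  LM_le.2 fun _ _ h1 h2 => ι_mem_LM (h h1) h2

theorem lcs_le (W : Subgroup X) (n : ℕ) : W.lowerCentralSeries n ≤ W :=
  W.lowerCentralSeries_antitone (Nat.zero_le n)

theorem LM_self : LM W W = ⊤ := by
  refine eq_top_iff.2 fun x h => ?_
  clear h
  induction x using AssocLie.induction_on with
  | h0 => exact zero_mem _
  | h1 n g hg => exact ι_mem_LM (lcs_le W n hg) hg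
  | h2 x y hx hy => exact add_mem hx hy

theorem LM_bot : LM W ⊥ = ⊥ :=
  le_bot_iff.1 (LM_le.2 fun n g h _ => by rw [mem_bot.1 h, ι_one]; exact zero_mem _)

theorem lb_LM_le (Y Y' : Subgroup X) : lb (LM W Y) (LM W Y') ≤ LM W ⁅Y, Y'⁆ :=
  lb_comm_le (lb_le_iff_le_res.2 (LM_le.2 fun _ _ h1 h2 => lb_le.1 (lb_comm_le
    (lb_le_iff_le_res.2 (LM_le.2 fun _ _ h3 h4 z hz => by
      obtain ⟨k, rfl⟩ := AddSubgroup.mem_zmultiples_iff.1 hz
      rw [lie_zsmul, lie_ι h4 h2]
      exact zsmul_mem (ι_mem_LM (commutator_mem_commutator h3 h1) (comm_mem h4 h2 le_rfl)) k)))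
        _ (AddSubgroup.mem_zmultiples _)))

theorem itb_LM_le (Y Y' : Subgroup X) (n : ℕ) :
    itb (LM W Y) (LM W Y') n ≤ LM W (iterCommutator Y Y' n) := by
  induction n with
  | zero => exact le_rfl
  | succ n ih => exact (lb_mono ih le_rfl).trans (lb_LM_le _ _)

/-- the elements of `γ n` whose image lies in `Z` -/
noncomputable def pre (n : ℕ) (Z : AddSubgroup (AL W.lowerCentralSeries)) : Subgroup X where
  carrier := {g | g ∈ W.lowerCentralSeries n ∧ ι _ n g ∈ Z}
  one_mem' := ⟨one_mem _, by rw [ι_one]; exact zero_mem _⟩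
  mul_mem' := fun ha hb => ⟨mul_mem ha.1 hb.1, by rw [ι_mul ha.1 hb.1]; exact add_mem ha.2 hb.2⟩
  inv_mem' := fun ha => ⟨inv_mem ha.1, by rw [ι_inv ha.1]; exact neg_mem ha.2⟩

theorem ι_mem_itb (n : ℕ) : W.lowerCentralSeries n ≤ pre (W := W) n (itb ⊤ ⊤ n) := by
  induction n with
  | zero => exact fun g hg => ⟨hg, trivial⟩
  | succ n ih =>
    refine commutator_le.2 fun x hx y hy => ⟨commutator_mem_commutator hx hy, ?_⟩
    have := lie_ι (K := W.lowerCentralSeries) (j := 0) hx hy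
    rw [add_zero] at this
    rw [← this]
    exact lie_mem_lb (ih hx).2 trivial

variable {A : Subgroup X}

theorem le_normalizer_lcs (h : A ≤ normalizer (W : Set X)) (n : ℕ) :
    A ≤ normalizer (W.lowerCentralSeries n : Set X) := by
  induction n with
  | zero => exact h
  | succ n ih => exact le_normalizer_commutator ih h

/-- the action of one element -/
noncomputable def act1 (h : A ≤ normalizer (W : Set X)) (a : A) :
    AL W.lowerCentralSeries →+ AL W.lowerCentralSeries :=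
  AssocLie.map (MulAut.conj (a : X)).toMonoidHom
    fun n _ hg => conj_mem_of_mem_normalizer (le_normalizer_lcs h n a.2) hg

theorem act1_ι (h : A ≤ normalizer (W : Set X)) (a : A) {n : ℕ} {g : X}
    (hg : g ∈ W.lowerCentralSeries n) : act1 h a (ι _ n g) = ι _ n (a * g * (a : X)⁻¹) :=
  map_ι (MulAut.conj (a : X)).toMonoidHom _ hg

/-- the action on the associated Lie ring -/
noncomputable def act (h : A ≤ normalizer (W : Set X)) :
    A →* Module.End ℤ (AL W.lowerCentralSeries) where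
  toFun := fun a => (act1 h a).toIntLinearMap
  map_one' := LinearMap.toAddMonoidHom_injective (hom_ext fun n g hg =>
    (act1_ι h 1 hg).trans (by simp))
  map_mul' := fun a b => LinearMap.toAddMonoidHom_injective (hom_ext fun n g hg => by
    change act1 h (a * b) _ = act1 h a (act1 h b _)
    rw [act1_ι h _ hg, act1_ι h _ hg,
      act1_ι h _ (conj_mem_of_mem_normalizer (le_normalizer_lcs h n b.2) hg)]
    simp [mul_assoc])

theorem act_ι (h : A ≤ normalizer (W : Set X)) (a : A) {n : ℕ} {g : X}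
    (hg : g ∈ W.lowerCentralSeries n) : act h a (ι _ n g) = ι _ n (a * g * (a : X)⁻¹) :=
  act1_ι h a hg

theorem act_lie (h : A ≤ normalizer (W : Set X)) (a : A) (x y : AL W.lowerCentralSeries) :
    act h a ⁅x, y⁆ = ⁅act h a x, act h a y⁆ :=
  map_lie (MulAut.conj (a : X)).toMonoidHom
    (fun n _ hg => conj_mem_of_mem_normalizer (le_normalizer_lcs h n a.2) hg) x y

theorem act_mem_LM (h : A ≤ normalizer (W : Set X)) (a : A) {Y : Subgroup X}
    (hY : A ≤ normalizer (Y : Set X)) : ∀ x ∈ LM W Y, act h a x ∈ LM W Y :=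
  fun _ hx => (LM_le.2 fun n g h1 h2 => by
    change act h a _ ∈ LM W Y
    rw [act_ι h a h2]
    exact ι_mem_LM (conj_mem_of_mem_normalizer (hY a.2) h1)
      (conj_mem_of_mem_normalizer (le_normalizer_lcs h n a.2) h2) :
        _ ≤ (LM W Y).comap (act h a).toAddMonoidHom) hx

variable [Finite X]

theorem LM_le_iSup (hA : IsMulCommutative A) (h : A ≤ normalizer (W : Set X))
    (hcop : (Nat.card A).Coprime (Nat.card W)) {Y : Subgroup X} (hY : A ≤ normalizer (Y : Set X))
    {Z : AddSubgroup (AL W.lowerCentralSeries)}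
    (hZ : ∀ E, Coc A E → LM W (Y ⊓ centralizer (E : Set X)) ≤ Z) : LM W Y ≤ Z :=
  LM_le.2 fun n _ h1 h2 => (le_of_cocyclic_centralizer_le (K := pre n Z) hA
    (le_normalizer_inf hY (le_normalizer_lcs h n))
    (hcop.coprime_dvd_right (card_dvd_of_le (inf_le_right.trans (lcs_le W n))))
    (fun E h3 h4 _ hx => ⟨hx.1.2, hZ E ⟨h3, h4⟩ (ι_mem_LM ⟨hx.1.1, hx.2⟩ hx.1.2)⟩)
      (mem_inf.2 ⟨h1, h2⟩)).2

theorem tr_mem_LM (hA : IsMulCommutative A) (h : A ≤ normalizer (W : Set X))
    (hcop : (Nat.card A).Coprime (Nat.card W)) {Y : Subgroup X} (hY : A ≤ normalizer (Y : Set X))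
    (E : Subgroup A) : ∀ x ∈ LM W Y,
      tr (act h) E x ∈ LM W (Y ⊓ centralizer ((E.map A.subtype : Subgroup X) : Set X)) := by
  refine fun _ hx => (LM_le.2 fun n g h1 h2 => ?_ : _ ≤ (LM W _).comap
    (tr (act h) E).toAddMonoidHom) hx
  change tr (act h) E _ ∈ LM W _
  have key : ∀ T : Finset A, ∃ y ∈ Y ⊓ W.lowerCentralSeries n,
      ∑ e ∈ T, act h e (ι _ n g) = ι _ n y := fun T => by
    classical
    induction T using Finset.induction_on with
    | empty => exact ⟨1, one_mem _, by rw [ι_one, Finset.sum_empty]⟩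
    | insert a T ha ih =>
      obtain ⟨y, hy, h3⟩ := ih
      have h4 := conj_mem_of_mem_normalizer (le_normalizer_lcs h n a.2) h2
      exact ⟨_, mul_mem (mem_inf.2 ⟨conj_mem_of_mem_normalizer (hY a.2) h1, h4⟩) hy, by
        rw [Finset.sum_insert ha, h3, act_ι h a h2, ι_mul h4 hy.2]⟩
  obtain ⟨y, hy, h3⟩ := key (Set.toFinite (E : Set A)).toFinset
  rw [← tr_apply] at h3
  have hE : E.map A.subtype ≤ A := map_subtype_le E
  obtain ⟨w, hw, c, hc, rfl⟩ := exists_mul_centralizer_of_commutator_mem (g := y)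
    (N := Y ⊓ W.lowerCentralSeries (n + 1))
    (hE.trans (le_normalizer_inf hY (le_normalizer_lcs h _)))
    ((hcop.coprime_dvd_right (card_dvd_of_le (inf_le_right.trans (lcs_le W _)))).coprime_dvd_left
      (card_dvd_of_le hE))
    (Or.inl (isSolvable_of_le isSolvable_of_isMulCommutative hE)) (by
      rintro _ ⟨e, he, rfl⟩
      refine mem_inf.2 ⟨Sig.commutatorElement_mem_left hy.1 (hY e.2), ?_⟩
      have h4 := conj_mem_of_mem_normalizer (le_normalizer_lcs h n e.2) (inv_mem hy.2)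
      rw [commutatorElement_def, mul_assoc, mul_assoc, coe_subtype, ← mul_assoc (e : X),
        ← ι_eq_zero_iff (mul_mem hy.2 h4), ι_mul hy.2 h4, ← act_ι h e (inv_mem hy.2),
        ι_inv hy.2, map_neg, ← h3, apply_tr _ he, add_neg_cancel])
  have h4 : w ∈ W.lowerCentralSeries n := W.lowerCentralSeries_antitone (Nat.le_succ n) hw.2
  have h5 := (mul_mem_cancel_left h4).1 hy.2
  rw [h3, ι_mul h4 h5, ι_eq_zero hw.2, zero_add]
  exact ι_mem_LM ⟨(mul_mem_cancel_left (mem_inf.1 hw).1).1 hy.1, hc⟩ h5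

theorem nsmul_card_eq_zero (x : AL W.lowerCentralSeries) : Nat.card W • x = 0 := by
  induction x using AssocLie.induction_on with
  | h0 => exact smul_zero _
  | h1 n g hg =>
    rw [← ι_pow hg, show g ^ Nat.card W = 1 from
      congrArg Subtype.val (pow_card_eq_one' (x := (⟨g, lcs_le W n hg⟩ : W))), ι_one]
  | h2 x y hx hy => rw [smul_add, hx, hy, add_zero]

omit [Finite X] in
theorem lcs_eq_bot_of_le (hW : Group.IsNilpotent W) {n : ℕ}
    (h : W.lowerCentralSeries n ≤ W.lowerCentralSeries (n + 1)) : W.lowerCentralSeries n = ⊥ := by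
  obtain ⟨k, hk⟩ := (isNilpotent_iff_lowerCentralSeries W).1 hW
  have h1 : ∀ j, W.lowerCentralSeries n ≤ W.lowerCentralSeries (n + j) := fun j => by
    induction j with
    | zero => exact le_rfl
    | succ j ih => exact h.trans (commutator_mono ih le_rfl)
  exact le_bot_iff.1 ((h1 k).trans (hk ▸ W.lowerCentralSeries_antitone (Nat.le_add_left k n)))

theorem lcs_eq_bot_of_family (p m s c : ℕ) [Fact p.Prime] : ∃ N : ℕ, ∀ (X : Type u) [Group X]
    [Finite X] (A W : Subgroup X) (ι : Type) [Finite ι] (H : ι → Subgroup X),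
    IsElementaryAbelian p A → Nat.card A = p ^ c → A ≤ normalizer (W : Set X) →
    (Nat.card W).Coprime p → Group.IsNilpotent W → Nat.card ι ≤ s →
    (∀ i, A ≤ normalizer (H i : Set X)) → W ≤ ⨆ i, H i → (∀ i, H i ≤ W) →
    (∀ i j E, Coc A E → ∃ l, ⁅H i, H j⁆ ⊓ centralizer (E : Set X) ≤ H l) →
    (∀ i, W ⊓ centralizer (A : Set X) ≤ normalizer (H i : Set X)) →
    (∀ i E, Coc A E → iterCommutator (W ⊓ centralizer (E : Set X)) (H i) m = ⊥) →
    W.lowerCentralSeries N = ⊥ := by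
  obtain ⟨N, hN⟩ := nil_of_action.{u} p m s c
  refine ⟨N, fun X _ _ A W ι _ H hA hc hAW hcop hW hs hAH hgen hHW hcl hn hnil => ?_⟩
  obtain ⟨R, _, χ, ε, hε, hχ⟩ := exists_root p
  have hcop' : (Nat.card A).Coprime (Nat.card W) := hc ▸ hcop.symm.pow_left c
  letI : CommGroup A := { (inferInstance : Group A) with mul_comm := hA.1.is_comm.comm }
  have h1 : ∀ i j, lb (LM W (H i)) (LM W (H j)) ≤ ⨆ i, LM W (H i) := fun i j =>
    (lb_LM_le _ _).trans (LM_le_iSup hA.1 hAW hcop' (le_normalizer_commutator (hAH i) (hAH j))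
      fun E hE => (hcl i j E hE).elim fun l hl => le_iSup_of_le l (LM_mono hl))
  have h2 : ∀ n, W.lowerCentralSeries n ≤ pre n (⨆ i, LM W (H i)) := fun n => by
    induction n with
    | zero => exact hgen.trans (iSup_le fun i g hg => ⟨hHW i hg,
        AddSubgroup.mem_iSup_of_mem i (ι_mem_LM hg (hHW i hg))⟩)
    | succ n ih =>
      refine commutator_le.2 fun x hx y hy => ⟨commutator_mem_commutator hx hy, ?_⟩
      have := lie_ι (K := W.lowerCentralSeries) (j := 0) hx hy
      rw [add_zero] at this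
      rw [← this]
      exact lb_iSup_left_le (fun i => lb_iSup_right_le (h1 i)) (lie_mem_lb (ih hx).2
        ((hgen.trans (iSup_le fun i g hg => ⟨hHW i hg, AddSubgroup.mem_iSup_of_mem i
          (ι_mem_LM hg (hHW i hg))⟩ : _ ≤ pre (W := W) 0 _) hy).2))
  have key := hN ℤ R χ ε hε hχ (AL W.lowerCentralSeries) A (act hAW) ι (fun i => LM W (H i))
    (Nat.card W) hc (fun a => Subtype.ext (hA.2 a a.2)) (act_lie hAW) nsmul_card_eq_zero hcop hs
    (fun a i => act_mem_LM hAW a (hAH i))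
    (eq_top_iff.2 (LM_self.ge.trans (LM_le.2 fun n g _ hg => (h2 n hg).2))) (fun i => ?_)
    (fun i j E ⟨a, hE⟩ => ?_) (fun j => ⟨LM W (W ⊓ centralizer (A : Set X)), fun x hx => ?_,
      fun i => (lb_LM_le _ _).trans (LM_mono (commutator_le_left_of_le_normalizer (hn i)))⟩)
  · refine lcs_eq_bot_of_le hW fun g hg => ?_
    have := (ι_mem_itb N hg).2
    rwa [key, AddSubgroup.mem_bot, ι_eq_zero_iff hg] at this
  · refine le_bot_iff.1 ((itb_mono (LM_self.ge.trans (LM_le_iSup hA.1 hAW hcop' hAW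
      (Z := ⨆ E : {E // Coc A E}, LM W (W ⊓ centralizer (E.1 : Set X))) fun E hE =>
        le_iSup (fun E : {E // Coc A E} => LM W (W ⊓ centralizer (E.1 : Set X))) ⟨E, hE⟩))
      le_rfl m).trans ((itb_iSup_le _ _ m).trans (iSup_le fun E => (itb_LM_le _ _ m).trans ?_)))
    rw [hnil i E.1 E.2, LM_bot]
  · obtain ⟨l, hl⟩ := hcl i j (E.map A.subtype) ⟨map_subtype_le E, a, a.2, by
      have := congrArg (Subgroup.map A.subtype) hE
      rwa [Subgroup.map_sup, MonoidHom.map_zpowers, ← MonoidHom.range_eq_map, range_subtype]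
        at this⟩
    exact ⟨l, fun x hx => LM_mono hl (tr_mem_LM hA.1 hAW hcop'
      (le_normalizer_commutator (hAH i) (hAH j)) E x (lb_LM_le _ _ hx))⟩
  · have := tr_mem_LM hA.1 hAW hcop' hAW ⊤ x (LM_mono (hHW j) hx)
    rwa [← MonoidHom.range_eq_map, range_subtype] at this

end CfsgLib.LieNil
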