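import Cfsg.Agent.Lib.HigmanLie

/-!
# Graded Lie rings spanned by subgroups acting nilpotently
-/

set_option autoImplicit false

namespace CfsgLib.LieNil

open GradedLie

universe u

variable {L : Type u} [LieRing L]

/-- the bracket of two additive subgroups -/
def lb (X Y : AddSubgroup L) : AddSubgroup L :=
  AddSubgroup.closure {z | ∃ x ∈ X, ∃ y ∈ Y, ⁅x, y⁆ = z}

theorem lie_mem_lb {X Y : AddSubgroup L} {x y : L} (hx : x ∈ X) (hy : y ∈ Y) : ⁅x, y⁆ ∈ lb X Y :=
  AddSubgroup.subset_closure ⟨x, hx, y, hy, rfl⟩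

theorem lb_le {X Y Z : AddSubgroup L} : lb X Y ≤ Z ↔ ∀ x ∈ X, ∀ y ∈ Y, ⁅x, y⁆ ∈ Z := by
  refine ⟨fun h x hx y hy => h (lie_mem_lb hx hy), fun h => (AddSubgroup.closure_le _).2 ?_⟩
  rintro _ ⟨x, hx, y, hy, rfl⟩
  exact h x hx y hy

theorem lb_mono {X Y X' Y' : AddSubgroup L} (h1 : X ≤ X') (h2 : Y ≤ Y') : lb X Y ≤ lb X' Y' :=
  lb_le.2 fun _ hx _ hy => lie_mem_lb (h1 hx) (h2 hy)

theorem lb_comm_le {X Y Z : AddSubgroup L} (h : lb X Y ≤ Z) : lb Y X ≤ Z :=
  lb_le.2 fun x hx y hy => by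
    rw [← lie_skew]; exact neg_mem (h (lie_mem_lb hy hx))

/-- `{x | ⁅x, Y⁆ ≤ Z}` -/
def res (Y Z : AddSubgroup L) : AddSubgroup L where
  carrier := {x | ∀ y ∈ Y, ⁅x, y⁆ ∈ Z}
  zero_mem' := fun y _ => by rw [zero_lie]; exact zero_mem _
  add_mem' := fun ha hb y hy => by rw [add_lie]; exact add_mem (ha y hy) (hb y hy)
  neg_mem' := fun ha y hy => by rw [neg_lie]; exact neg_mem (ha y hy)

theorem lb_le_iff_le_res {X Y Z : AddSubgroup L} : lb X Y ≤ Z ↔ X ≤ res Y Z := lb_le

theorem lb_iSup_left_le {ι : Sort*} {X : ι → AddSubgroup L} {Y Z : AddSubgroup L}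
    (h : ∀ i, lb (X i) Y ≤ Z) : lb (⨆ i, X i) Y ≤ Z :=
  lb_le_iff_le_res.2 (iSup_le fun i => lb_le_iff_le_res.1 (h i))

theorem lb_iSup_right_le {ι : Sort*} {X : ι → AddSubgroup L} {Y Z : AddSubgroup L}
    (h : ∀ i, lb Y (X i) ≤ Z) : lb Y (⨆ i, X i) ≤ Z :=
  lb_comm_le (lb_iSup_left_le fun i => lb_comm_le (h i))

theorem lb_sup_left_le {X X' Y Z : AddSubgroup L} (h : lb X Y ≤ Z) (h' : lb X' Y ≤ Z) :
    lb (X ⊔ X') Y ≤ Z :=
  lb_le_iff_le_res.2 (sup_le (lb_le_iff_le_res.1 h) (lb_le_iff_le_res.1 h'))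

theorem lb_sup_right_le {X X' Y Z : AddSubgroup L} (h : lb Y X ≤ Z) (h' : lb Y X' ≤ Z) :
    lb Y (X ⊔ X') ≤ Z :=
  lb_comm_le (lb_sup_left_le (lb_comm_le h) (lb_comm_le h'))

theorem lb_bot_left (Y : AddSubgroup L) : lb ⊥ Y = ⊥ :=
  le_bot_iff.1 (lb_le_iff_le_res.2 bot_le)

theorem lb_lb_le {X Y Z K : AddSubgroup L} (h1 : lb (lb X Z) Y ≤ K) (h2 : lb X (lb Y Z) ≤ K) :
    lb (lb X Y) Z ≤ K := by
  rw [lb_le_iff_le_res, lb_le]
  intro x hx y hy z hz
  rw [lie_lie']
  exact add_mem (h1 (lie_mem_lb (lie_mem_lb hx hz) hy)) (h2 (lie_mem_lb hx (lie_mem_lb hy hz)))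

/-- iterated bracket `[X, Y, …, Y]` -/
def itb (X Y : AddSubgroup L) : ℕ → AddSubgroup L
  | 0 => X
  | n + 1 => lb (itb X Y n) Y

theorem itb_mono {X Y X' Y' : AddSubgroup L} (h1 : X ≤ X') (h2 : Y ≤ Y') (n : ℕ) :
    itb X Y n ≤ itb X' Y' n := by
  induction n with
  | zero => exact h1
  | succ n ih => exact lb_mono ih h2

theorem itb_add (X Y : AddSubgroup L) (m n : ℕ) : itb X Y (m + n) = itb (itb X Y m) Y n := by
  induction n with
  | zero => rfl
  | succ n ih => rw [← add_assoc, itb, itb, ih]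

theorem itb_le_self {X Y : AddSubgroup L} (h : lb X Y ≤ X) (n : ℕ) : itb X Y n ≤ X := by
  induction n with
  | zero => exact le_rfl
  | succ n ih => exact (lb_mono ih le_rfl).trans h

theorem itb_iSup_le {ι : Sort*} (X : ι → AddSubgroup L) (Y : AddSubgroup L) (n : ℕ) :
    itb (⨆ i, X i) Y n ≤ ⨆ i, itb (X i) Y n := by
  induction n with
  | zero => exact le_rfl
  | succ n ih =>
    exact (lb_mono ih le_rfl).trans (lb_iSup_left_le fun i => le_iSup (fun i => itb (X i) Y (n + 1)) i)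

/-- `Y` acts nilpotently on `L` -/
def Nil (Y : AddSubgroup L) (n : ℕ) : Prop := itb ⊤ Y n = ⊥

theorem Nil.mono {Y Y' : AddSubgroup L} {n : ℕ} (h : Nil Y n) (h' : Y' ≤ Y) : Nil Y' n :=
  le_bot_iff.1 ((itb_mono le_rfl h' n).trans h.le)

theorem Nil.of_le {Y : AddSubgroup L} {m n : ℕ} (h : Nil Y m) (h' : m ≤ n) : Nil Y n := by
  obtain ⟨k, rfl⟩ := Nat.exists_eq_add_of_le h'
  rw [Nil, itb_add, h]
  exact le_bot_iff.1 (itb_le_self (lb_bot_left Y).le k)

theorem nil_bot : Nil (⊥ : AddSubgroup L) 1 :=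
  le_bot_iff.1 (lb_comm_le (lb_bot_left _).le)

theorem Nil.sup {Y Z : AddSubgroup L} {a b : ℕ} (hY : Nil Y a) (hZ : Nil Z b)
    (h : lb Y Z ≤ Y) : Nil (Y ⊔ Z) (a * b) := by
  have h1 : ∀ t, lb (itb ⊤ Y t) Z ≤ itb ⊤ Y t := fun t => by
    induction t with
    | zero => exact le_top
    | succ t ih => exact lb_lb_le (lb_mono ih le_rfl) (lb_mono le_rfl h)
  have h2 : ∀ t, itb ⊤ Y (t + 1) ≤ itb ⊤ Y t := fun t => by
    rw [add_comm, itb_add]
    exact itb_mono le_top le_rfl t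
  have h3 : ∀ t j, itb (itb ⊤ Y t) (Y ⊔ Z) j ≤ itb ⊤ Y (t + 1) ⊔ itb (itb ⊤ Y t) Z j := by
    intro t j
    induction j with
    | zero => exact le_sup_right
    | succ j ih =>
      refine (lb_mono ih le_rfl).trans (lb_sup_left_le (le_sup_of_le_left
        (lb_sup_right_le (h2 _) (h1 _))) (lb_sup_right_le (le_sup_of_le_left
          (lb_mono (itb_le_self (h1 t) j) le_rfl)) le_sup_right))
  have h4 : ∀ t, itb ⊤ (Y ⊔ Z) (t * b) ≤ itb ⊤ Y t := fun t => by
    induction t with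
    | zero => exact le_top
    | succ t ih =>
      rw [add_one_mul, itb_add]
      exact (itb_mono ih le_rfl b).trans ((h3 t b).trans (sup_le le_rfl
        (((itb_mono le_top le_rfl b).trans hZ.le).trans bot_le)))
  exact le_bot_iff.1 ((h4 a).trans hY.le)

theorem Nil.sup_iSup {ι : Type} [Finite ι] {D : AddSubgroup L} {M : ι → AddSubgroup L} {n m s : ℕ}
    (hs : Nat.card ι ≤ s) (hD : Nil D n) (hM : ∀ i, Nil (M i) m) (h1 : ∀ i, lb D (M i) ≤ D)
    (h2 : ∀ i j, lb (M i) (M j) ≤ D ⊔ M i) : Nil (D ⊔ ⨆ i, M i) (n * (m + 1) ^ s) := by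
  classical
  have := Fintype.ofFinite ι
  have key : ∀ T : Finset ι, Nil (D ⊔ ⨆ i ∈ T, M i) (n * (m + 1) ^ T.card) := fun T => by
    induction T using Finset.induction_on with
    | empty => simpa using hD
    | insert j T hj ih =>
      rw [Finset.iSup_insert, sup_comm (M j), ← sup_assoc, Finset.card_insert_of_notMem hj,
        pow_succ, ← mul_assoc]
      refine ih.sup ((hM j).of_le (Nat.le_succ m)) (lb_sup_left_le ((h1 j).trans le_sup_left)
        (lb_iSup_left_le fun i => lb_iSup_left_le fun hi => (h2 i j).trans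
          (sup_le_sup_left (le_iSup₂ (f := fun i (_ : i ∈ T) => M i) i hi) _)))
  refine ((key Finset.univ).mono (sup_le_sup_left (iSup_le fun i =>
    le_iSup₂ (f := fun i (_ : i ∈ Finset.univ) => M i) i (Finset.mem_univ i)) _)).of_le (Nat.mul_le_mul_left _
      (Nat.pow_le_pow_right (Nat.succ_pos m) ?_))
  rwa [Finset.card_univ, ← Nat.card_eq_fintype_card]

/-- derived series of an additive subgroup -/
def der (X : AddSubgroup L) : ℕ → AddSubgroup L
  | 0 => X
  | n + 1 => der (lb X X) n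

theorem der_mono {X Y : AddSubgroup L} (h : X ≤ Y) (n : ℕ) : der X n ≤ der Y n := by
  induction n generalizing X Y with
  | zero => exact h
  | succ n ih => exact ih (lb_mono h h)

theorem nil_of_der (m f : ℕ) : ∀ s : ℕ, ∃ N : ℕ, ∀ (L : Type u) [LieRing L] (ι : Type) [Finite ι]
    (M : ι → AddSubgroup L), Nat.card ι ≤ s → (∀ i, Nil (M i) m) →
    (∀ i j, ∃ l, lb (M i) (M j) ≤ M l) → der (⨆ i, M i) f = ⊥ → Nil (⨆ i, M i) N := by
  induction f with
  | zero => exact fun s => ⟨1, fun L _ ι _ M _ _ _ h => nil_bot.mono h.le⟩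
  | succ f ih =>
    intro s
    obtain ⟨N, hN⟩ := ih (s * s)
    refine ⟨N * (m + 1) ^ s, fun L _ ι _ M hs hM hc h => ?_⟩
    have h1 : lb (⨆ i, M i) (⨆ i, M i) = ⨆ x : ι × ι, lb (M x.1) (M x.2) :=
      le_antisymm (lb_iSup_left_le fun i => lb_iSup_right_le fun j =>
        le_iSup (fun x : ι × ι => lb (M x.1) (M x.2)) (i, j))
        (iSup_le fun x => lb_mono (le_iSup _ _) (le_iSup _ _))
    have h2 := hN L (ι × ι) (fun x => lb (M x.1) (M x.2))
      (by rw [Nat.card_prod]; exact Nat.mul_le_mul hs hs)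
      (fun x => (hc x.1 x.2).elim fun l hl => (hM l).mono hl)
      (fun x y => (hc x.1 x.2).elim fun l hl => (hc y.1 y.2).elim fun l' hl' =>
        ⟨(l, l'), lb_mono hl hl'⟩) (h1 ▸ h)
    refine (h2.sup_iSup hs hM (fun j => lb_iSup_left_le fun x => ?_) fun i j =>
      le_sup_of_le_left (le_iSup (fun x : ι × ι => lb (M x.1) (M x.2)) (i, j))).mono le_sup_right
    obtain ⟨l, hl⟩ := hc x.1 x.2
    exact (lb_mono hl le_rfl).trans (le_iSup (fun x : ι × ι => lb (M x.1) (M x.2)) (l, j))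

theorem der_succ' (X : AddSubgroup L) (n : ℕ) : der X (n + 1) = lb (der X n) (der X n) := by
  induction n generalizing X with
  | zero => rfl
  | succ n ih => exact ih (lb X X)

theorem der_add (X : AddSubgroup L) (m n : ℕ) : der X (m + n) = der (der X m) n := by
  induction n with
  | zero => rfl
  | succ n ih => rw [← add_assoc, der_succ', der_succ', ih]

theorem der_le_itb {X : AddSubgroup L} (h : lb X X ≤ X) (n : ℕ) : der X n ≤ X ⊓ itb ⊤ X n := by
  induction n with
  | zero => exact le_inf le_rfl le_top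
  | succ n ih =>
    rw [der_succ']
    exact le_inf ((lb_mono (ih.trans inf_le_left) (ih.trans inf_le_left)).trans h)
      (lb_mono (ih.trans inf_le_right) (ih.trans inf_le_left))

theorem der_iSup_le {A : Type*} [AddCommGroup A] (F : A → AddSubgroup L) (n : ℕ) :
    der (⨆ i, F i) n ≤ ⨆ i, D^[n] F i := by
  induction n with
  | zero => exact le_rfl
  | succ n ih =>
    rw [der_succ', Function.iterate_succ_apply']
    exact lb_le.2 fun x hx y hy => HigmanLie.lie_mem_iSup_br (ih hx) (ih hy)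

/-- The part of a family in degree `0` and degrees `≥ k`. -/
def tail0 {n : ℕ} (k : ℕ) (F : ZMod n → AddSubgroup L) : ZMod n → AddSubgroup L :=
  fun j => if k ≤ j.val ∨ j = 0 then F j else ⊥

theorem tail0_le {n : ℕ} (k : ℕ) (F : ZMod n → AddSubgroup L) : tail0 k F ≤ F := fun j => by
  unfold tail0; split_ifs <;> simp

theorem mem_tail0 {n k : ℕ} {F : ZMod n → AddSubgroup L} {j : ZMod n} {x : L}
    (h : k ≤ j.val ∨ j = 0) (hx : x ∈ F j) : x ∈ gen (tail0 k F) j :=
  le_gen _ j (by unfold tail0; rwa [if_pos h])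

theorem kreknin_aux (n m : ℕ) [NeZero n] (k : ℕ) : ∃ f : ℕ, ∀ (L : Type u) [LieRing L]
    (F : ZMod n → AddSubgroup L), IsGr F → Nil (F 0) m → D^[f] F ≤ gen (tail0 (k + 1) F) := by
  induction k with
  | zero =>
    refine ⟨0, fun L _ F _ _ j x hx => mem_tail0 ?_ hx⟩
    rw [← ZMod.val_eq_zero]; omega
  | succ k ih =>
    obtain ⟨f, ih⟩ := ih
    refine ⟨f + (f + 1) * m, fun L _ F hF h0 => ?_⟩
    have key : ∀ (j : ZMod n), k + 1 = j.val → ∀ H, IsGr H → H ≤ F →
        D^[f + 1] H j ≤ gen (tail0 (k + 1 + 1) F) j ⊔ lb (H j) (F 0) := by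
      intro j hj H hH hHF
      rw [Function.iterate_succ_apply']
      refine le_trans (((br_mono (hH.iterate_D _).2 (ih L H hH (h0.mono (hHF 0)))).trans
        (br_gen_le hH (tail0_le _ _))) j) ((AddSubgroup.closure_le _).2 ?_)
      rintro _ ⟨a, b, rfl, y, hy, z, hz, rfl⟩
      unfold tail0 at hz
      split_ifs at hz with hb
      swap
      · rw [AddSubgroup.mem_bot.1 hz, lie_zero]; exact zero_mem _
      rcases eq_or_ne b 0 with rfl | hb'
      · rw [add_zero]
        exact AddSubgroup.mem_sup_right (lie_mem_lb hy (hHF 0 hz))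
      rcases eq_or_ne a 0 with rfl | ha
      · rw [zero_add, ← lie_skew]
        exact AddSubgroup.mem_sup_right (neg_mem (lie_mem_lb hz (hHF 0 hy)))
      have ha' : a.val ≠ 0 := by rwa [Ne, ZMod.val_eq_zero]
      have hb1 := hb.resolve_right hb'
      have e1 := ZMod.val_lt a
      have e2 := ZMod.val_lt b
      have e3 : (a + b).val = a.val + b.val - n ∧ n ≤ a.val + b.val := by
        rcases lt_or_ge (a.val + b.val) n with h | h
        · rw [ZMod.val_add_of_lt h] at hj; omega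
        · exact ⟨ZMod.val_add_of_le h, h⟩
      exact AddSubgroup.mem_sup_left (isGr_gen _ a b y (mem_tail0 (Or.inl (by omega)) (hHF _ hy)) z
        (mem_tail0 (Or.inl (by omega)) (hHF _ hz)))
    have key2 : ∀ (j : ZMod n), k + 1 = j.val → ∀ t,
        D^[(f + 1) * t] F j ≤ gen (tail0 (k + 1 + 1) F) j ⊔ itb ⊤ (F 0) t := by
      intro j hj t
      induction t with
      | zero => exact le_sup_of_le_right le_top
      | succ t iht =>
        rw [mul_add_one, add_comm _ (f + 1), Function.iterate_add_apply]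
        refine (key j hj _ (hF.iterate_D _).1 (hF.iterate_D _).2).trans (sup_le le_sup_left
          ((lb_mono iht le_rfl).trans (lb_sup_left_le (le_sup_of_le_left ?_) le_sup_right)))
        refine lb_le.2 fun x hx y hy => ?_
        simpa using isGr_gen _ j 0 x hx y (mem_tail0 (Or.inr rfl) hy)
    rw [Function.iterate_add_apply]
    obtain ⟨hH, hHF⟩ := hF.iterate_D ((f + 1) * m)
    refine (ih L _ hH (h0.mono (hHF 0))).trans (gen_le ?_ (isGr_gen _))
    intro j x hx
    unfold tail0 at hx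
    split_ifs at hx with hj
    swap
    · rw [AddSubgroup.mem_bot.1 hx]; exact zero_mem _
    rcases hj with hj | hj
    · rcases hj.lt_or_eq with hj | hj
      · exact mem_tail0 (Or.inl hj) (hHF j hx)
      · have := key2 j hj m hx
        rwa [h0, sup_bot_eq] at this
    · exact mem_tail0 (Or.inr hj) (hHF j hx)

/-- Kreknin's theorem for a zero component acting nilpotently. -/
theorem kreknin (n m : ℕ) [NeZero n] : ∃ f : ℕ, ∀ (L : Type u) [LieRing L]
    (F : ZMod n → AddSubgroup L), IsGr F → Nil (F 0) m → der (⨆ i, F i) f = ⊥ := by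
  obtain ⟨f, hf⟩ := kreknin_aux.{u} n m n
  refine ⟨f + m, fun L _ F hF h0 => ?_⟩
  have h1 : D^[f] F ≤ fun _ => F 0 := by
    refine (hf L F hF h0).trans (gen_le (fun j => ?_) fun i j x hx y hy => ?_)
    · have := ZMod.val_lt j
      unfold tail0
      split_ifs with h
      · rw [h.resolve_left (by omega)]
      · exact bot_le
    · simpa using hF 0 0 x hx y hy
  rw [der_add]
  exact le_bot_iff.1 (((der_mono ((der_iSup_le F f).trans (iSup_le h1)) m).trans
    (der_le_itb (lb_le.2 fun x hx y hy => by simpa using hF 0 0 x hx y hy) m)).trans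
      (inf_le_right.trans h0.le))

/-- The graded nilpotency theorem. -/
theorem nil_of_graded (p m s : ℕ) [NeZero p] (c : ℕ) : ∃ N : ℕ, ∀ (L : Type u) [LieRing L]
    (ι : Type) [Finite ι] (M : ι → AddSubgroup L) (α : Type u) (deg : ι → α → ZMod p)
    (T : List α), T.length = c → Nat.card ι ≤ s → (∀ i, Nil (M i) m) →
    (∀ i j, ∃ l, deg l = deg i + deg j ∧ lb (M i) (M j) ≤ M l) →
    (∀ i j, (∀ a ∈ T, deg j a = 0) → lb (M i) (M j) ≤ M i) → Nil (⨆ i, M i) N := by
  induction c with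
  | zero =>
    refine ⟨1 * (m + 1) ^ s, fun L _ ι _ M α deg T hT hs hM _ h => ?_⟩
    rw [List.length_eq_zero_iff] at hT
    exact (nil_bot.sup_iSup hs hM (fun _ => (lb_bot_left _).le) fun i j =>
      le_sup_of_le_right (h i j (by simp [hT]))).mono le_sup_right
  | succ c ih =>
    obtain ⟨N, hN⟩ := ih
    obtain ⟨f, hf⟩ := kreknin.{u} p N
    obtain ⟨N', hN'⟩ := nil_of_der.{u} m f s
    refine ⟨N', fun L _ ι _ M α deg T hT hs hM hc h => ?_⟩
    obtain ⟨a, T, rfl⟩ := List.exists_cons_of_length_eq_add_one hT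
    refine hN' L ι M hs hM (fun i j => (hc i j).imp fun _ h => h.2) (le_bot_iff.1 (le_trans
      (der_mono (iSup_le fun i => ?_) f)
      (hf L (fun t => ⨆ i : {i // deg i a = t}, M i) ?_ ?_).le))
    · exact le_iSup_of_le (deg i a) (le_iSup (fun j : {j // deg j a = deg i a} => M j) ⟨i, rfl⟩)
    · refine fun t t' => lb_le.1 (lb_iSup_left_le fun i => lb_iSup_right_le fun j => ?_)
      obtain ⟨l, h1, h2⟩ := hc i j
      exact h2.trans (le_iSup (fun j : {j // deg j a = t + t'} => M j)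
        ⟨l, by rw [h1, Pi.add_apply, i.2, j.2]⟩)
    · refine hN L {i // deg i a = 0} (fun i => M i) α (fun i => deg i) T (by simpa using hT)
        ((Finite.card_subtype_le _).trans hs) (fun i => hM i) (fun i j => ?_) fun i j h1 =>
          h i j (by simpa [j.2] using h1)
      obtain ⟨l, h1, h2⟩ := hc i j
      exact ⟨⟨l, by rw [h1, Pi.add_apply, i.2, j.2, add_zero]⟩, h1, h2⟩

end CfsgLib.LieNil
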